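import Cfsg.Agent.Lib.Hall.Solvable
import Cfsg.Agent.Lib.Coprime.Action

/-! Conjugacy of subgroups of equal order: general tools, and the case of cyclic Sylow subgroups. -/

set_option autoImplicit false

namespace Cfsg.Agent.Lib.ConjEqual

open scoped Pointwise
open Subgroup Coprime

universe u

/-- Any two subgroups of the same order are conjugate. -/
def AllConj (G : Type*) [Group G] : Prop :=
  ∀ A B : Subgroup G, Nat.card ↥A = Nat.card ↥B → ∃ g : G, MulAut.conj g • A = B

/-- All `s`-subgroups are cyclic. -/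
def CycAt (s : ℕ) (G : Type*) [Group G] : Prop :=
  ∀ S : Subgroup G, IsPGroup s ↥S → IsCyclic ↥S

variable {G : Type*} [Group G]

theorem CycAt.subgroup {s : ℕ} (h : CycAt s G) (T : Subgroup G) : CycAt s ↥T := fun S hS => by
  have := h (S.map T.subtype) (hS.map _)
  exact isCyclic_of_surjective (equivMapOfInjective S T.subtype T.subtype_injective).symm
    (equivMapOfInjective S T.subtype T.subtype_injective).symm.surjective

theorem CycAt.quotient [Finite G] {s : ℕ} [Fact s.Prime] (h : CycAt s G) (N : Subgroup G)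
    [N.Normal] : CycAt s (G ⧸ N) := fun S hS => by
  let X := S.comap (QuotientGroup.mk' N)
  let f : ↥X →* ↥S := (QuotientGroup.mk' N).subgroupComap S
  have hf : Function.Surjective f := fun y => by
    obtain ⟨x, hx⟩ := QuotientGroup.mk'_surjective N y.1
    exact ⟨⟨x, by show QuotientGroup.mk' N x ∈ S; rw [hx]; exact y.2⟩, Subtype.ext hx⟩
  obtain ⟨P⟩ := (inferInstance : Nonempty (Sylow s ↥X))
  have htop : ((P.mapSurjective hf : Sylow s ↥S) : Subgroup ↥S) = ⊤ :=
    ((P.mapSurjective hf).is_maximal' (hS.to_subgroup ⊤) le_top).symm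
  rw [Sylow.coe_mapSurjective] at htop
  have hc : IsCyclic ↥(P : Subgroup ↥X) := h.subgroup X _ P.isPGroup'
  have : IsCyclic ↥((P : Subgroup ↥X).map f) :=
    isCyclic_of_surjective (f.subgroupMap (P : Subgroup ↥X)) (f.subgroupMap_surjective _)
  rw [htop] at this
  exact Subgroup.topEquiv.isCyclic.1 this

/-- If all `s`-subgroups are cyclic, an elementary normal `s`-subgroup lies in every subgroup of
order divisible by `s`. -/
theorem CycAt.le_of_dvd [Finite G] {s : ℕ} [Fact s.Prime] (h : CycAt s G) {N : Subgroup G}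
    [N.Normal] (hexp : ∀ x ∈ N, x ^ s = 1) {A : Subgroup G} (hA : s ∣ Nat.card ↥A) : N ≤ A := by
  obtain ⟨x, hx⟩ := exists_prime_orderOf_dvd_card' s hA
  have hxo : orderOf (x : G) = s := by rw [orderOf_coe, hx]
  set K := zpowers (x : G) ⊔ N
  have hK : IsPGroup s ↥K := (IsPGroup.of_card (n := 1) (by
    rw [Nat.card_zpowers, hxo, pow_one])).to_sup_of_normal_right
    (Hall.isPGroup_of_pow_eq_one hexp)
  have hc : IsCyclic ↥K := h K hK
  letI := hc.commGroup
  have hle : zpowers (x : G) ⊔ N ≤ (powMonoidHom s : ↥K →* ↥K).ker.map K.subtype := by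
    refine sup_le (zpowers_le.2 ?_) fun y hy => ?_
    · exact ⟨⟨x, mem_sup_left (mem_zpowers _)⟩, Subtype.ext (by
        show (x : G) ^ s = 1
        rw [← hxo, pow_orderOf_eq_one]), rfl⟩
    · exact ⟨⟨y, mem_sup_right hy⟩, Subtype.ext (hexp y hy), rfl⟩
  have hcard : Nat.card ↥K ∣ s := by
    rw [← hc.exponent_eq_card]
    refine Monoid.exponent_dvd_of_forall_pow_eq_one fun y => ?_
    obtain ⟨z, hz, hzy⟩ := hle y.2
    have : z = y := Subtype.ext hzy
    rw [← this]
    exact hz
  have heq : zpowers (x : G) = K := eq_of_le_of_card_ge le_sup_left (by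
    rw [Nat.card_zpowers, hxo]; exact Nat.le_of_dvd (Fact.out : s.Prime).pos hcard)
  exact (le_sup_right.trans heq.ge).trans (zpowers_le.2 x.2)

/-- A complement inside a subgroup to a normal subgroup of coprime order. -/
theorem split [Finite G] {A V : Subgroup G} (hVA : V ≤ A) (hn : A ≤ normalizer (V : Set G))
    {k : ℕ} (hk : Nat.card ↥V * k = Nat.card ↥A) (hco : (Nat.card ↥V).Coprime k) :
    ∃ A₀ ≤ A, Nat.card ↥A₀ = k ∧ A₀ ⊔ V = A := by
  have : (V.subgroupOf A).Normal := (normal_subgroupOf_iff_le_normalizer hVA).2 hn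
  have hidx : (V.subgroupOf A).index = k := by
    have h := (V.subgroupOf A).card_mul_index
    rw [card_subgroupOf hVA, ← hk] at h
    exact mul_left_cancel₀ Nat.card_pos.ne' h
  obtain ⟨C, hC⟩ := exists_right_complement'_of_coprime (N := V.subgroupOf A)
    (by rw [card_subgroupOf hVA, hidx]; exact hco)
  refine ⟨C.map A.subtype, map_subtype_le C, ?_, ?_⟩
  · rw [card_map_of_injective A.subtype_injective, ← hC.symm.index_eq_card, hidx]
  · have h := congrArg (Subgroup.map A.subtype) hC.symm.sup_eq_top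
    rwa [Subgroup.map_sup, subgroupOf_map_subtype, inf_eq_left.2 hVA, ← MonoidHom.range_eq_map,
      range_subtype] at h

theorem inf_card [Finite G] (N : Subgroup G) [N.Normal] (hN : (Nat.card ↥N).Coprime N.index)
    (A : Subgroup G) :
    Nat.card ↥(A ⊓ N) = (Nat.card ↥A).gcd (Nat.card ↥N) ∧
      (Nat.card ↥N).Coprime (Nat.card ↥(A.map (QuotientGroup.mk' N))) := by
  have hd : Nat.card ↥(A.map (QuotientGroup.mk' N)) ∣ N.index := by
    rw [index_eq_card]; exact card_subgroup_dvd_card _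
  have hco := hN.coprime_dvd_right hd
  refine ⟨?_, hco⟩
  rw [← card_map_mk' N A, Nat.Coprime.gcd_mul_left_cancel _ hco.symm]
  exact (Nat.gcd_eq_left (card_dvd_of_le inf_le_right)).symm

/-- Lift conjugacy modulo a normal subgroup of coprime order. -/
theorem lift_conj [Finite G] [Group.IsSolvable G] (N : Subgroup G) [N.Normal] {T : Subgroup G}
    (hNT : N ≤ T) {A B : Subgroup G} (hA : A ≤ T)
    (hc : Nat.card ↥A = Nat.card ↥B) (hco : (Nat.card ↥A).Coprime (Nat.card ↥N))
    {h : G ⧸ N} (hh : h ∈ T.map (QuotientGroup.mk' N))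
    (he : MulAut.conj h • A.map (QuotientGroup.mk' N) = B.map (QuotientGroup.mk' N)) :
    ∃ g ∈ T, MulAut.conj g • A = B := by
  obtain ⟨t, ht, rfl⟩ := hh
  rw [← map_conj_smul] at he
  have hsup := eq_of_map_mk'_eq he
  obtain ⟨n, hn, hnB⟩ := exists_conj_eq_of_le_sup (A := MulAut.conj t • A) (N := N)
    (by rw [normalizer_eq_top]; exact le_top) (by rwa [card_conj_smul])
    (Or.inr inferInstance) (B := B) (le_sup_left.trans hsup.ge) (by rw [card_conj_smul, hc])
  exact ⟨n * t, T.mul_mem (hNT hn) ht, by rw [conj_smul_mul, hnB]⟩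

theorem conj_smul_sup (g : G) (A B : Subgroup G) :
    MulAut.conj g • (A ⊔ B) = MulAut.conj g • A ⊔ MulAut.conj g • B :=
  Subgroup.smul_sup _ _ _

theorem conj_smul_le {g : G} {A T : Subgroup G} (hg : g ∈ T) (hA : A ≤ T) :
    MulAut.conj g • A ≤ T := fun x hx => by
  rw [mem_conj_smul] at hx
  have := T.mul_mem (T.mul_mem hg (hA hx)) (T.inv_mem hg)
  simpa [mul_assoc] using this

/-- Subgroups whose orders only involve primes with cyclic Sylow subgroups are conjugate. -/
theorem cyc_conj_aux (n : ℕ) : ∀ (G : Type u) [Group G] [Finite G] [Group.IsSolvable G],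
    Nat.card G ≤ n → ∀ A B : Subgroup G, Nat.card ↥A = Nat.card ↥B →
      (∀ s : ℕ, s.Prime → s ∣ Nat.card ↥A → CycAt s G) → ∃ g : G, MulAut.conj g • A = B := by
  induction n with
  | zero => intro G _ _ _ h; exact absurd h (by have := Nat.card_pos (α := G); omega)
  | succ n ih =>
    intro G _ _ _ hG A B hc hcyc
    rcases subsingleton_or_nontrivial G with hs | hs
    · exact ⟨1, Subsingleton.elim _ _⟩
    obtain ⟨N, hNn, hNne, -, hmin⟩ := Hall.exists_minimal_normal_le (G := G) (N := ⊤) top_ne_bot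
    obtain ⟨-, p, hp, hexp⟩ := Hall.minimal_normal_solvable N hNne hmin
    have : Fact p.Prime := ⟨hp⟩
    obtain ⟨k, hk⟩ := IsPGroup.iff_card.1 (Hall.isPGroup_of_pow_eq_one hexp)
    have hq : Nat.card (G ⧸ N) ≤ n := by
      have := card_quotient_lt (G := G) hNne; omega
    by_cases hdvd : p ∣ Nat.card ↥A
    · have hNA : N ≤ A := (hcyc p hp hdvd).le_of_dvd hexp hdvd
      have hNB : N ≤ B := (hcyc p hp hdvd).le_of_dvd hexp (hc ▸ hdvd)
      have h1 := card_map_mk' N A
      have h2 := card_map_mk' N B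
      rw [inf_eq_right.2 hNA] at h1
      rw [inf_eq_right.2 hNB, ← hc] at h2
      obtain ⟨h, he⟩ := ih (G ⧸ N) hq (A.map (QuotientGroup.mk' N)) (B.map (QuotientGroup.mk' N))
        (mul_right_cancel₀ (Nat.card_pos (α := ↥N)).ne' (h1.trans h2.symm))
        (fun s hs hs' => by
          have : Fact s.Prime := ⟨hs⟩
          exact (hcyc s hs (hs'.trans (card_map_dvd _ _))).quotient N)
      obtain ⟨t, rfl⟩ := QuotientGroup.mk'_surjective N h
      rw [← map_conj_smul] at he
      refine ⟨t, ?_⟩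
      have h3 := eq_of_map_mk'_eq he
      rwa [sup_eq_left.2 hNB, sup_eq_left.2 ?_] at h3
      rw [← conj_smul_of_normal N t]
      exact Subgroup.pointwise_smul_le_pointwise_smul_iff.2 hNA
    · have hco : (Nat.card ↥A).Coprime (Nat.card ↥N) := by
        rw [hk]; exact (hp.coprime_iff_not_dvd.2 hdvd).symm.pow_right k
      have hcA : ∀ C : Subgroup G, Nat.card ↥C = Nat.card ↥A →
          Nat.card ↥(C.map (QuotientGroup.mk' N)) = Nat.card ↥A := fun C hC => by
        have h1 := card_map_mk' N C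
        rw [inf_eq_bot_of_coprime (A := C) (N := N) (by rw [hC]; exact hco), card_bot, mul_one,
          hC] at h1
        exact h1
      obtain ⟨h, he⟩ := ih (G ⧸ N) hq (A.map (QuotientGroup.mk' N)) (B.map (QuotientGroup.mk' N))
        (by rw [hcA A rfl, hcA B hc.symm])
        (fun s hs hs' => by
          have : Fact s.Prime := ⟨hs⟩
          exact (hcyc s hs (hs'.trans (card_map_dvd _ _))).quotient N)
      obtain ⟨g, -, hg⟩ := lift_conj N (T := ⊤) le_top le_top hc hco
        (by rw [map_top_of_surjective _ (QuotientGroup.mk'_surjective N)]; exact mem_top h) he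
      exact ⟨g, hg⟩

/-- The same inside a subgroup. -/
theorem cyc_conj_in [Finite G] [Group.IsSolvable G] {T A B : Subgroup G} (hA : A ≤ T) (hB : B ≤ T)
    (hc : Nat.card ↥A = Nat.card ↥B) (hcyc : ∀ s : ℕ, s.Prime → s ∣ Nat.card ↥A → CycAt s G) :
    ∃ g ∈ T, MulAut.conj g • A = B := by
  obtain ⟨g, hg⟩ := cyc_conj_aux (Nat.card ↥T) ↥T le_rfl (A.subgroupOf T) (B.subgroupOf T)
    (by rw [card_subgroupOf hA, card_subgroupOf hB, hc])
    (fun s hs hs' => (hcyc s hs (by rwa [card_subgroupOf hA] at hs')).subgroup T)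
  refine ⟨g, g.2, ?_⟩
  have h := congrArg (Subgroup.map T.subtype) hg
  rwa [map_conj_smul, map_subgroupOf_eq_of_le hA, map_subgroupOf_eq_of_le hB] at h

/-- Conjugacy inside `T` when there is a normal Hall subgroup `R ≤ T` whose subgroups of equal order
are conjugate in `T`, the other Sylow subgroups being cyclic. -/
theorem conj_in_of_normal [Finite G] [Group.IsSolvable G] {T R : Subgroup G} [R.Normal]
    (hco : (Nat.card ↥R).Coprime R.index)
    (hR : ∀ X Y : Subgroup G, X ≤ R → Y ≤ R → Nat.card ↥X = Nat.card ↥Y →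
      ∃ g ∈ T, MulAut.conj g • X = Y)
    (hcyc : ∀ s : ℕ, s.Prime → ¬ s ∣ Nat.card ↥R → CycAt s G)
    {A B : Subgroup G} (hA : A ≤ T) (hB : B ≤ T) (hc : Nat.card ↥A = Nat.card ↥B) :
    ∃ g ∈ T, MulAut.conj g • A = B := by
  obtain ⟨g₀, hg₀, hX⟩ := hR (A ⊓ R) (B ⊓ R) inf_le_right inf_le_right
    (by rw [(inf_card R hco A).1, (inf_card R hco B).1, hc])
  set A' := MulAut.conj g₀ • A with hA'
  have hinf : A' ⊓ R = B ⊓ R := by
    rw [← hX, conj_smul_inf, conj_smul_of_normal R g₀]
  set Y := B ⊓ R with hY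
  set k := Nat.card ↥(B.map (QuotientGroup.mk' R))
  have hkB : Nat.card ↥Y * k = Nat.card ↥B := by rw [mul_comm]; exact card_map_mk' R B
  have hcoY : (Nat.card ↥Y).Coprime k :=
    (inf_card R hco B).2.coprime_dvd_left (card_dvd_of_le inf_le_right)
  have hnY : ∀ C : Subgroup G, C ⊓ R = Y → C ≤ normalizer (Y : Set G) := fun C hC => by
    rw [← hC]
    intro c hc'
    exact mem_normalizer_of_conj_smul_eq (by
      rw [conj_smul_inf, conj_smul_of_normal R c, conj_smul_eq_self (le_normalizer hc')])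
  obtain ⟨A₀, hA₀, hA₀c, hA₀s⟩ := split (A := A') (V := Y) (hinf ▸ inf_le_left) (hnY A' hinf)
    (k := k) (by rw [hkB, hA', card_conj_smul, hc]) hcoY
  obtain ⟨B₀, hB₀, hB₀c, hB₀s⟩ := split (A := B) (V := Y) inf_le_left (hnY B rfl) hkB hcoY
  obtain ⟨g, hg, hgA⟩ := cyc_conj_in (T := T ⊓ normalizer (Y : Set G)) (A := A₀) (B := B₀)
    (le_inf (hA₀.trans (conj_smul_le hg₀ hA)) (hA₀.trans (hnY A' hinf)))
    (le_inf (hB₀.trans hB) (hB₀.trans (hnY B rfl))) (hA₀c.trans hB₀c.symm)
    (fun s hs hs' => hcyc s hs fun hsR => hs.not_dvd_one (by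
      rw [← (inf_card R hco B).2.gcd_eq_one]
      exact Nat.dvd_gcd hsR (hs'.trans (dvd_of_eq hA₀c))))
  refine ⟨g * g₀, T.mul_mem hg.1 hg₀, ?_⟩
  rw [conj_smul_mul, ← hA', ← hA₀s, conj_smul_sup, hgA, conj_smul_eq_self hg.2, hB₀s]

end Cfsg.Agent.Lib.ConjEqual
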