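import Cfsg.Agent.Lib.ConjEqual.Basic
import Cfsg.Agent.Lib.UniqueInvolution

/-! Sylow subgroups of solvable groups in which subgroups of equal order are conjugate. -/

set_option autoImplicit false

namespace Cfsg.Agent.Lib.ConjEqual

open scoped Pointwise commutatorElement
open Subgroup Coprime

variable {H : Type*} [Group H]

/-- `R` is a quaternion group of order `8`, described by its properties. -/
structure IsQ8 (R : Subgroup H) : Prop where
  card : Nat.card ↥R = 8
  notComm : ¬ IsMulCommutative ↥R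
  uniq : ∀ x ∈ R, ∀ y ∈ R, orderOf x = 2 → orderOf y = 2 → x = y

/-- There is no normal elementary abelian noncyclic Sylow subgroup. -/
def NoNormalElementary (H : Type*) [Group H] : Prop :=
  ∀ r : ℕ, r.Prime → ∀ R : Subgroup H, R.Normal → ¬ IsCyclic ↥R → IsMulCommutative ↥R →
    (∀ x ∈ R, x ^ r = 1) → (∀ x : H, x ^ r = 1 → x ∈ R) → False

theorem AllConj.mem_of_orderOf [Finite H] (hP : AllConj H) {N : Subgroup H} [N.Normal] {x y : H}
    (hx : x ∈ N) (hxy : orderOf x = orderOf y) : y ∈ N := by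
  obtain ⟨g, hg⟩ := hP (zpowers x) (zpowers y) (by rw [Nat.card_zpowers, Nat.card_zpowers, hxy])
  have := mem_zpowers y
  rw [← hg, mem_conj_smul] at this
  have h2 := (inferInstance : N.Normal).conj_mem _ (zpowers_le.2 hx this) g
  simpa [mul_assoc] using h2

theorem isCyclic_conj_smul {S : Subgroup H} (g : H) (hS : IsCyclic ↥S) :
    IsCyclic ↥(MulAut.conj g • S) :=
  (equivSMul (MulAut.conj g) S).isCyclic.1 hS

theorem AllConj.isCyclic_of_card [Finite H] (hP : AllConj H) {S : Subgroup H} {x : H}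
    (h : Nat.card ↥S = orderOf x) : IsCyclic ↥S := by
  obtain ⟨g, rfl⟩ := hP (zpowers x) S (by rw [Nat.card_zpowers, h])
  exact isCyclic_conj_smul g inferInstance

theorem exists_sq_of_two {s : ℕ} [hs : Fact s.Prime] [Finite H] (P : Subgroup H) (hPp : IsPGroup s ↥P)
    (K L : Subgroup ↥P) (hK : Nat.card ↥K = s) (hL : Nat.card ↥L = s) (hne : K ≠ L) :
    ∃ E : Subgroup H, E ≤ P ∧ Nat.card ↥E = s ^ 2 ∧ ¬ IsCyclic ↥E := by
  have hnt : Nontrivial ↥P := by
    by_contra h
    rw [not_nontrivial_iff_subsingleton] at h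
    exact hne (Subsingleton.elim _ _)
  have := hPp.center_nontrivial
  obtain ⟨z, hz⟩ : ∃ z : ↥(center ↥P), orderOf z = s := by
    refine exists_prime_orderOf_dvd_card' s ?_
    rcases (hPp.to_subgroup (center ↥P)).card_eq_or_dvd with h1 | h1
    · exact absurd h1 (Finite.one_lt_card_iff_nontrivial.2 this).ne'
    · exact h1
  set Z := zpowers (z : ↥P) with hZ
  have hZc : Nat.card ↥Z = s := by rw [Nat.card_zpowers, orderOf_coe, hz]
  obtain ⟨M, hMc, hMZ⟩ : ∃ M : Subgroup ↥P, Nat.card ↥M = s ∧ M ≠ Z := by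
    by_cases h : K = Z
    · exact ⟨L, hL, fun e => hne (h.trans e.symm)⟩
    · exact ⟨K, hK, h⟩
  have hn : Z.Normal := ⟨fun a ha g => by
    have hc : a ∈ center ↥P := zpowers_le.2 z.2 ha
    rw [mem_center_iff.1 hc g, mul_inv_cancel_right]; exact ha⟩
  have hinf : M ⊓ Z = ⊥ := by
    by_contra h
    have h1 : ∀ T : Subgroup ↥P, Nat.card ↥T = s → M ⊓ Z ≤ T → M ⊓ Z = T := fun T hT hle => by
      refine eq_of_le_of_card_ge hle ?_
      rcases (Nat.dvd_prime hs.out).1 (hT ▸ card_dvd_of_le hle) with h2 | h2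
      · exact absurd ((M ⊓ Z).card_eq_one.1 h2) h
      · rw [h2, hT]
    exact hMZ ((h1 M hMc inf_le_left).symm.trans (h1 Z hZc inf_le_right))
  have hcard := card_sup_mul_card_inf Z M
  rw [hinf, card_bot, mul_one, hMc, hZc] at hcard
  refine ⟨(M ⊔ Z).map P.subtype, map_subtype_le _, ?_, fun hc => ?_⟩
  · rw [card_map_of_injective P.subtype_injective, hcard, sq]
  · have hc' : IsCyclic ↥(M ⊔ Z) :=
      (equivMapOfInjective (M ⊔ Z) P.subtype P.subtype_injective).isCyclic.2 hc
    have he : ∀ T : Subgroup ↥(M ⊔ Z), Nat.card ↥T = s →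
        ∀ S : Subgroup ↥(M ⊔ Z), Nat.card ↥S = s → T = S :=
      fun T hT S hS => by
      classical
      have : Fintype ↥(M ⊔ Z) := Fintype.ofFinite _
      have hT' : ∀ U : Subgroup ↥(M ⊔ Z), Nat.card ↥U = s →
          (Finset.univ.filter fun a => a ∈ U) = Finset.univ.filter fun a => a ^ s = 1 := fun U hU => by
        refine Finset.eq_of_subset_of_card_le (fun a ha => ?_) ?_
        · simp only [Finset.mem_filter, Finset.mem_univ, true_and] at ha ⊢
          exact orderOf_dvd_iff_pow_eq_one.1 (hU ▸ U.orderOf_dvd_natCard ha)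
        · refine (IsCyclic.card_pow_eq_one_le hs.out.pos).trans ?_
          rw [← hU, Nat.card_eq_fintype_card, Fintype.card_subtype]
      ext a
      have h1 := (hT' T hT).trans (hT' S hS).symm
      simpa using Finset.ext_iff.1 h1 a
    have := he (M.subgroupOf (M ⊔ Z)) (by rw [card_subgroupOf le_sup_left, hMc])
      (Z.subgroupOf (M ⊔ Z)) (by rw [card_subgroupOf le_sup_right, hZc])
    apply hMZ
    have h2 := congrArg (Subgroup.map (M ⊔ Z).subtype) this
    rwa [map_subgroupOf_eq_of_le le_sup_left, map_subgroupOf_eq_of_le le_sup_right] at h2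

/-- A noncyclic Sylow subgroup either contains an elementary abelian subgroup of order `s ^ 2`, or
is quaternion of order `8`. -/
theorem noncyclic_cases [Finite H] (hP : AllConj H) {s : ℕ} [hs : Fact s.Prime] (h : ¬ CycAt s H) :
    (∃ E : Subgroup H, Nat.card ↥E = s ^ 2 ∧ ¬ IsCyclic ↥E) ∨
      (s = 2 ∧ ∀ P : Sylow s H, IsQ8 (P : Subgroup H)) := by
  obtain ⟨S, hS, hSc⟩ : ∃ S : Subgroup H, IsPGroup s ↥S ∧ ¬ IsCyclic ↥S := by
    by_contra hh; push_neg at hh; exact h hh
  by_cases hE : ∃ E : Subgroup H, Nat.card ↥E = s ^ 2 ∧ ¬ IsCyclic ↥E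
  · exact Or.inl hE
  refine Or.inr ?_
  have hPnc : ∀ P : Sylow s H, ¬ IsCyclic ↥(P : Subgroup H) := fun P hc => by
    obtain ⟨Q, hQ⟩ := hS.exists_le_sylow
    obtain ⟨g, hg⟩ := MulAction.exists_smul_eq H P Q
    have hQc : IsCyclic ↥(Q : Subgroup H) := by
      rw [← hg, Sylow.coe_subgroup_smul]
      exact isCyclic_conj_smul g hc
    exact hSc (isCyclic_of_injective (inclusion hQ) (inclusion_injective hQ))
  have hu : ∀ P : Sylow s H, ∀ K L : Subgroup ↥(P : Subgroup H),
      Nat.card ↥K = s → Nat.card ↥L = s → K = L := fun P K L hK hL => by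
    by_contra hne
    obtain ⟨E, -, hE1, hE2⟩ := exists_sq_of_two (P : Subgroup H) P.isPGroup' K L hK hL hne
    exact hE ⟨E, hE1, hE2⟩
  obtain ⟨P₀⟩ := (inferInstance : Nonempty (Sylow s H))
  obtain ⟨hs2, -⟩ := (UniqueInvolution.isCyclic_or_quaternion P₀.isPGroup' (hu P₀)).resolve_left
    (hPnc P₀)
  subst hs2
  refine ⟨rfl, fun P => ?_⟩
  obtain ⟨-, n, hn1, ⟨e⟩⟩ := (UniqueInvolution.isCyclic_or_quaternion P.isPGroup' (hu P)).resolve_left
    (hPnc P)
  have : NeZero (2 ^ n) := ⟨by positivity⟩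
  have hcard : Nat.card ↥(P : Subgroup H) = 2 ^ (n + 2) := by
    rw [Nat.card_congr e.toEquiv, Nat.card_eq_fintype_card, QuaternionGroup.card]; ring
  have hn : n = 1 := by
    by_contra hne
    set b : ↥(P : Subgroup H) := e.symm (QuaternionGroup.xa 0) with hb
    have hb4 : orderOf b = 4 := by rw [hb, MulEquiv.orderOf_eq, QuaternionGroup.orderOf_xa]
    obtain ⟨M, hM, hbM⟩ := Sylow.exists_subgroup_card_pow_prime_le 2
      (n := 2) (m := n + 1) (G := ↥(P : Subgroup H))
      (by rw [hcard]; exact pow_dvd_pow 2 (by omega)) (zpowers b)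
      (by rw [Nat.card_zpowers, hb4]; rfl) (by omega)
    have hA : orderOf (((e.symm (QuaternionGroup.a 1) : ↥(P : Subgroup H)) : H)) = 2 ^ (n + 1) := by
      rw [orderOf_coe, MulEquiv.orderOf_eq, QuaternionGroup.orderOf_a_one]; ring
    have hMc : IsCyclic ↥M := by
      have h1 := hP.isCyclic_of_card (S := M.map (P : Subgroup H).subtype)
        (by rw [hA, card_map_of_injective (P : Subgroup H).subtype_injective, hM])
      exact (equivMapOfInjective M _ (P : Subgroup H).subtype_injective).isCyclic.2 h1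
    obtain ⟨y, hy⟩ := hMc.exists_ofOrder_eq_natCard
    rw [hM] at hy
    letI := hMc.commGroup
    have hcomm : e y * e b = e b * e y := by
      have := congrArg (fun w : ↥M => e (w : ↥(P : Subgroup H)))
        (mul_comm y (⟨b, hbM (mem_zpowers b)⟩ : ↥M))
      simpa using this
    have hy' : orderOf (e (y : ↥(P : Subgroup H))) = 2 ^ (n + 1) := by
      rw [MulEquiv.orderOf_eq, orderOf_coe, hy]
    have h8 : 8 ≤ 2 ^ (n + 1) :=
      le_trans (by norm_num) (Nat.pow_le_pow_right (by norm_num) (show 3 ≤ n + 1 by omega))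
    rw [hb, e.apply_symm_apply] at hcomm
    rcases hey : e (y : ↥(P : Subgroup H)) with i | i
    · rw [hey, QuaternionGroup.a_mul_xa, QuaternionGroup.xa_mul_a] at hcomm
      have h1 : i + i = 0 := by
        have := QuaternionGroup.xa.inj hcomm
        rw [zero_sub, zero_add] at this
        nth_rewrite 1 [← this]
        rw [neg_add_cancel]
      have h2 : orderOf (QuaternionGroup.a i) ∣ 2 := orderOf_dvd_of_pow_eq_one (by
        rw [pow_two, QuaternionGroup.a_mul_a, h1]; rfl)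
      rw [← hey, hy'] at h2
      have := Nat.le_of_dvd (by norm_num) h2; omega
    · have h2 := hy'
      rw [hey, QuaternionGroup.orderOf_xa] at h2
      omega
  subst hn
  refine ⟨hcard, fun hc => ?_, fun x hx y hy hx2 hy2 => ?_⟩
  · have h1 := congrArg e (hc.is_comm.comm (e.symm (QuaternionGroup.a 1))
      (e.symm (QuaternionGroup.xa 0)))
    rw [map_mul, map_mul, e.apply_symm_apply, e.apply_symm_apply] at h1
    exact absurd h1 (by decide)
  · have h1 := hu P (zpowers ⟨x, hx⟩) (zpowers ⟨y, hy⟩)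
      (by rw [Nat.card_zpowers, ← orderOf_coe, hx2]) (by rw [Nat.card_zpowers, ← orderOf_coe, hy2])
    obtain ⟨i, hi⟩ := mem_zpowers_iff.1 (h1 ▸ mem_zpowers (⟨x, hx⟩ : ↥(P : Subgroup H)))
    have hi' : y ^ i = x := by simpa using congrArg Subtype.val hi
    have hy21 : y ^ 2 = 1 := by rw [← hy2, pow_orderOf_eq_one]
    rcases Int.even_or_odd i with ⟨j, rfl⟩ | ⟨j, rfl⟩
    · rw [← two_mul, zpow_mul, zpow_two, ← sq, hy21, one_zpow] at hi'
      rw [← hi', orderOf_one] at hx2; omega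
    · rw [zpow_add, zpow_mul, zpow_two, ← sq, hy21, one_zpow, one_mul, zpow_one] at hi'
      exact hi'.symm

theorem IsQ8.pow_four [Finite H] {R : Subgroup H} (hR : IsQ8 R) {x : H} (hx : x ∈ R) : x ^ 4 = 1 := by
  have : Fact (Nat.Prime 2) := ⟨Nat.prime_two⟩
  have h := R.orderOf_dvd_natCard hx
  rw [hR.card, show 8 = 2 ^ 3 by rfl] at h
  obtain ⟨i, hi, hi'⟩ := (Nat.dvd_prime_pow Nat.prime_two).1 h
  refine orderOf_dvd_iff_pow_eq_one.1 ?_
  rw [hi', show 4 = 2 ^ 2 by rfl]
  refine pow_dvd_pow 2 ?_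
  by_contra h3
  have hc : IsCyclic ↥R := isCyclic_of_orderOf_eq_card (⟨x, hx⟩ : ↥R)
    (by rw [← orderOf_coe]; show orderOf x = _; rw [hi', show i = 3 by omega, hR.card]; rfl)
  exact hR.notComm (IsCyclic.isMulCommutative)

theorem IsQ8.mem_zpowers_of_sq [Finite H] {R : Subgroup H} (hR : IsQ8 R) {e x : H} (he : e ∈ R)
    (he4 : orderOf e = 4) (hx : x ∈ R) (hx2 : x ^ 2 = 1) : x ∈ zpowers e := by
  rcases eq_or_ne x 1 with rfl | hx1
  · exact one_mem _
  have : x = e ^ 2 := hR.uniq x hx _ (R.pow_mem he 2) (orderOf_eq_prime hx2 hx1)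
    (by rw [orderOf_pow, he4]; rfl)
  rw [this]
  exact pow_mem (mem_zpowers e) 2

theorem IsQ8.exists_orderFour [Finite H] {R : Subgroup H} (hR : IsQ8 R) :
    ∃ e ∈ R, ∃ f ∈ R, orderOf e = 4 ∧ orderOf f = 4 ∧ f ∉ zpowers e ∧ e * f ≠ f * e := by
  obtain ⟨e, he, f, hf, hef⟩ : ∃ e ∈ R, ∃ f ∈ R, e * f ≠ f * e := by
    by_contra h; push_neg at h
    exact hR.notComm ⟨⟨fun a b => Subtype.ext (h a a.2 b b.2)⟩⟩
  have h4 : ∀ a ∈ R, ∀ b ∈ R, a * b ≠ b * a → orderOf a = 4 := fun a ha b hb hab => by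
    have : Fact (Nat.Prime 2) := ⟨Nat.prime_two⟩
    refine orderOf_eq_prime_pow (p := 2) (n := 1) (fun ha2 => hab ?_) (hR.pow_four ha)
    rw [pow_one] at ha2
    rcases eq_or_ne a 1 with rfl | ha1
    · rw [one_mul, mul_one]
    have h1 : orderOf (b * a * b⁻¹) = 2 := orderOf_eq_prime (by
      rw [conj_pow, ha2, mul_one, mul_inv_cancel]) (by simpa using ha1)
    have := hR.uniq _ (R.mul_mem (R.mul_mem hb ha) (R.inv_mem hb)) a ha h1 (orderOf_eq_prime ha2 ha1)
    exact (mul_inv_eq_iff_eq_mul.1 this).symm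
  refine ⟨e, he, f, hf, h4 e he f hf hef, h4 f hf e he (Ne.symm hef), fun hm => hef ?_, hef⟩
  obtain ⟨i, rfl⟩ := mem_zpowers_iff.1 hm
  exact (Commute.refl e).zpow_right i

theorem commutator_le_centralizer_of_isCyclic {C : Subgroup H} [C.Normal] (hC : IsCyclic ↥C) :
    ⁅(⊤ : Subgroup H), (⊤ : Subgroup H)⁆ ≤ centralizer (C : Set H) := by
  rw [commutator_le]
  intro h _ k _
  have hcomm : ∀ φ ψ : MulAut ↥C, φ * ψ = ψ * φ := fun φ ψ => by
    obtain ⟨i, hi⟩ := MonoidHom.map_cyclic φ.toMonoidHom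
    obtain ⟨j, hj⟩ := MonoidHom.map_cyclic ψ.toMonoidHom
    simp only [MulEquiv.coe_toMonoidHom] at hi hj
    ext x
    rw [MulAut.mul_apply, MulAut.mul_apply, hj, hi, hi, hj, ← zpow_mul, ← zpow_mul, mul_comm]
  rw [mem_centralizer_iff]
  intro d hd
  have h1 : (MulAut.conjNormal ⁅h, k⁆ : MulAut ↥C) = 1 := by
    rw [map_commutatorElement, commutatorElement_eq_one_iff_mul_comm]; exact hcomm _ _
  have h2 : ⁅h, k⁆ * d * ⁅h, k⁆⁻¹ = d := by
    have := congrArg (fun φ : MulAut ↥C => ((φ ⟨d, hd⟩ : ↥C) : H)) h1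
    rwa [MulAut.conjNormal_apply] at this
  exact (mul_inv_eq_iff_eq_mul.1 h2).symm

theorem mem_pCore_of_mem_fitting [Finite H] {s : ℕ} [hs : Fact s.Prime] {x : H}
    (hx : x ∈ fittingSubgroup H) {k : ℕ} (hxs : x ^ s ^ k = 1) : x ∈ pCore s H := by
  have := Hall.fittingSubgroup_isNilpotent (G := H)
  set F := fittingSubgroup H
  obtain ⟨P⟩ := (inferInstance : Nonempty (Sylow s ↥F))
  have : (P : Subgroup ↥F).Characteristic := P.characteristic_of_normal inferInstance
  have : ((P : Subgroup ↥F).map F.subtype).Normal := ConjAct.normal_of_characteristic_of_normal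
  refine Hall.le_pCore (P.2.map F.subtype) ⟨⟨x, hx⟩, ?_, rfl⟩
  have hz : IsPGroup s ↥(zpowers (⟨x, hx⟩ : ↥F)) := by
    obtain ⟨i, -, hi⟩ := (Nat.dvd_prime_pow hs.out).1
      (orderOf_dvd_of_pow_eq_one (G := ↥F) (x := ⟨x, hx⟩) (n := s ^ k) (Subtype.ext hxs))
    exact IsPGroup.of_card (n := i) (by rw [Nat.card_zpowers, hi])
  exact (P.is_maximal' (hz.to_sup_of_normal_right P.isPGroup') le_sup_right).le
    (mem_sup_left (mem_zpowers _))

/-- Structure of the Sylow subgroups. -/
theorem struct [Finite H] [Group.IsSolvable H] (hP : AllConj H) (hna : NoNormalElementary H)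
    {s : ℕ} (hs : s.Prime) :
    CycAt s H ∨ (s = 2 ∧ ∃ R : Subgroup H, R.Normal ∧ IsQ8 R ∧
      ∀ S : Subgroup H, IsPGroup 2 ↥S → S ≤ R) := by
  set M := ⁅(⊤ : Subgroup H), (⊤ : Subgroup H)⁆ with hM
  have hMn : M.Normal := inferInstance
  -- exponent and trivial core in the elementary case
  have hE : ∀ t : ℕ, [Fact t.Prime] → ∀ E : Subgroup H, Nat.card ↥E = t ^ 2 → ¬ IsCyclic ↥E →
      (∀ x ∈ E, x ^ t = 1) ∧ pCore t H = ⊥ ∧ ∃ x ∈ M, orderOf x = t := by
    intro t ht E hEc hEn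
    have hexp : ∀ x : H, x ^ t ^ 2 = 1 → x ^ t = 1 := fun x hx => by
      obtain ⟨i, hi, hi'⟩ := (Nat.dvd_prime_pow ht.out).1 (orderOf_dvd_of_pow_eq_one hx)
      rcases Nat.lt_or_ge i 2 with h2 | h2
      · exact orderOf_dvd_iff_pow_eq_one.1 (by
          rw [hi']; conv_rhs => rw [← pow_one t]
          exact pow_dvd_pow t (by omega))
      · exact absurd (hP.isCyclic_of_card (S := E) (x := x) (by rw [hEc, hi', show i = 2 by omega])) hEn
    have hEe : ∀ x ∈ E, x ^ t = 1 := fun x hx => hexp x (by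
      have := congrArg Subtype.val (pow_card_eq_one' (G := ↥E) (x := ⟨x, hx⟩))
      rwa [hEc] at this)
    have hall : ∀ N : Subgroup H, N.Normal → (∃ x ∈ N, orderOf x = t) → ∀ y : H, y ^ t = 1 → y ∈ N := by
      rintro N hN ⟨x, hx, hxo⟩ y hy
      rcases eq_or_ne y 1 with rfl | hy1
      · exact N.one_mem
      · exact hP.mem_of_orderOf hx (hxo.trans (orderOf_eq_prime hy hy1).symm)
    have hcore : pCore t H = ⊥ := by
      by_contra hne
      obtain ⟨N, hNn, hNne, hNle, hmin⟩ := Hall.exists_minimal_normal_le hne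
      obtain ⟨hNc, q, hq, hqe⟩ := Hall.minimal_normal_solvable N hNne hmin
      obtain ⟨x, hx, hxo⟩ : ∃ x ∈ N, orderOf x = t := by
        rcases ((Hall.isPGroup_pCore t).to_le hNle).card_eq_or_dvd with h1 | h1
        · exact absurd (N.card_eq_one.1 h1) hNne
        · obtain ⟨x, hx⟩ := exists_prime_orderOf_dvd_card' t h1
          exact ⟨x, x.2, by rw [orderOf_coe, hx]⟩
      have hqt : t = q := by
        rcases (Nat.dvd_prime hq).1 (hxo ▸ orderOf_dvd_of_pow_eq_one (hqe x hx)) with h1 | h1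
        · exact absurd h1 ht.out.ne_one
        · exact h1
      subst hqt
      refine hna t hq N hNn (fun hc => hEn ?_) hNc hqe (hall N hNn ⟨x, hx, hxo⟩)
      exact isCyclic_of_injective (inclusion (fun y hy => hall N hNn ⟨x, hx, hxo⟩ y (hEe y hy) : E ≤ N))
        (inclusion_injective _)
    refine ⟨hEe, hcore, ?_⟩
    obtain ⟨x, hx⟩ := exists_prime_orderOf_dvd_card' (G := ↥E) t (hEc ▸ dvd_pow_self t two_ne_zero)
    have hxo : orderOf (x : H) = t := by rw [orderOf_coe, hx]
    obtain ⟨y, hy, hyx⟩ : ∃ y ∈ E, y ∉ zpowers (x : H) := by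
      by_contra h; push_neg at h
      exact hEn (isCyclic_of_injective (inclusion (h : E ≤ zpowers (x : H))) (inclusion_injective _))
    have hyo : orderOf y = t := orderOf_eq_prime (hEe y hy) (fun h => hyx (h ▸ one_mem _))
    obtain ⟨g, hg⟩ := hP (zpowers (x : H)) (zpowers y)
      (by rw [Nat.card_zpowers, Nat.card_zpowers, hxo, hyo])
    have hy' : g * x * g⁻¹ ∈ zpowers y := hg ▸ conj_mem_conj_smul (mem_zpowers _)
    refine ⟨⁅g, (x : H)⁆, commutator_mem_commutator (mem_top g) (mem_top _),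
      orderOf_eq_prime ?_ fun h => ?_⟩
    · exact hEe _ (by
        rw [commutatorElement_def]
        exact E.mul_mem (zpowers_le.2 hy hy') (E.inv_mem x.2))
    · rw [commutatorElement_def, mul_inv_eq_one] at h
      rw [h] at hy'
      have heq : zpowers (x : H) = zpowers y := eq_of_le_of_card_ge (zpowers_le.2 hy')
        (by rw [Nat.card_zpowers, Nat.card_zpowers, hxo, hyo])
      exact hyx (heq ▸ mem_zpowers y)
  -- every `pCore` is cyclic unless it is a normal quaternion Sylow subgroup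
  have hcores : (∀ R : Subgroup H, R.Normal → IsQ8 R → ¬ ∀ S : Subgroup H, IsPGroup 2 ↥S → S ≤ R) →
      M ≤ fittingSubgroup H := by
    intro hno
    refine le_trans ?_ (Hall.centralizer_fittingSubgroup_le (G := H))
    rw [le_centralizer_iff, Hall.fittingSubgroup_eq_iSup_pCore]
    refine iSup_le fun t => ?_
    have : Fact (t : ℕ).Prime := ⟨t.2⟩
    rw [← le_centralizer_iff]
    refine commutator_le_centralizer_of_isCyclic ?_
    by_contra hnc
    rcases noncyclic_cases hP (s := (t : ℕ)) (fun h => hnc (h _ (Hall.isPGroup_pCore _))) with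
      ⟨E, hEc, hEn⟩ | ⟨ht2, hQ⟩
    · apply hnc
      rw [(hE _ E hEc hEn).2.1]
      infer_instance
    · obtain ⟨t, htp⟩ := t
      dsimp only at ht2 hQ hnc this ⊢
      subst ht2
      have hle := Hall.pCore_le_sylow (G := H) (p := 2)
      obtain ⟨P⟩ := (inferInstance : Nonempty (Sylow 2 H))
      obtain ⟨i, hi, hi'⟩ := (Nat.dvd_prime_pow Nat.prime_two).1
        (show Nat.card ↥(pCore 2 H) ∣ 2 ^ 3 from (card_dvd_of_le (hle P)).trans (hQ P).card.dvd)
      rcases Nat.lt_or_ge i 3 with h3 | h3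
      · obtain ⟨e, heP, -, -, he4, -⟩ := (hQ P).exists_orderFour
        rcases Nat.lt_or_ge i 2 with h2 | h2
        · interval_cases i
          · exact hnc (by rw [(pCore 2 H).card_eq_one.1 hi']; infer_instance)
          · exact hnc (isCyclic_of_prime_card (p := 2) (by simpa using hi'))
        · exact hnc (hP.isCyclic_of_card (x := e) (by rw [hi', he4, show i = 2 by omega]; rfl))
      · have heq : ∀ Q : Sylow 2 H, pCore 2 H = (Q : Subgroup H) := fun Q =>
          eq_of_le_of_card_ge (hle Q) (by rw [hi', (hQ Q).card, show i = 3 by omega]; rfl)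
        refine hno (pCore 2 H) inferInstance (heq P ▸ hQ P) fun S hS => ?_
        obtain ⟨Q, hQS⟩ := hS.exists_le_sylow
        exact hQS.trans (heq Q).ge
  by_cases hq : ∃ R : Subgroup H, R.Normal ∧ IsQ8 R ∧ ∀ S : Subgroup H, IsPGroup 2 ↥S → S ≤ R
  · obtain ⟨R, hRn, hR, hRall⟩ := hq
    rcases eq_or_ne s 2 with rfl | hs2
    · exact Or.inr ⟨rfl, R, hRn, hR, hRall⟩
    refine Or.inl ?_
    by_contra hcyc
    have : Fact s.Prime := ⟨hs⟩
    rcases noncyclic_cases hP hcyc with ⟨E, hEc, hEn⟩ | ⟨h2, -⟩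
    swap
    · exact hs2 h2
    obtain ⟨hEe, hcore, x₀, hx₀M, hx₀o⟩ := hE s E hEc hEn
    obtain ⟨e, heR, f, hfR, he4, -, hfe, -⟩ := hR.exists_orderFour
    have hconj : ∀ u : H, ∀ a ∈ R, u * a * u⁻¹ ∈ R := fun u a ha => hRn.conj_mem a ha u
    -- a nontrivial element of `E` fixing `e`
    obtain ⟨x, hxE, hx1, hxe⟩ : ∃ x ∈ E, x ≠ 1 ∧ x * e * x⁻¹ = e := by
      have hlt : Nat.card ↥R < Nat.card ↥E := by
        have h3 : 3 ≤ s := by have := hs.two_le; omega
        rw [hR.card, hEc]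
        exact lt_of_lt_of_le (by norm_num) (Nat.pow_le_pow_left h3 2)
      obtain ⟨u, v, huv, hne⟩ : ∃ u v : ↥E, (⟨_, hconj u e heR⟩ : ↥R) = ⟨_, hconj v e heR⟩ ∧ u ≠ v := by
        by_contra hh; push_neg at hh
        exact hlt.not_ge (Nat.card_le_card_of_injective (fun u : ↥E => (⟨_, hconj u e heR⟩ : ↥R))
          fun a b hab => hh a b hab)
      refine ⟨(v : H)⁻¹ * u, E.mul_mem (E.inv_mem v.2) u.2,
        fun h => hne (Subtype.ext (inv_mul_eq_one.1 h).symm), ?_⟩
      have h1 : (u : H) * e * (u : H)⁻¹ = v * e * (v : H)⁻¹ := congrArg Subtype.val huv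
      calc (v : H)⁻¹ * u * e * ((v : H)⁻¹ * u)⁻¹ = (v : H)⁻¹ * (u * e * (u : H)⁻¹) * v := by group
        _ = e := by rw [h1]; group
    have hxs := hEe x hxE
    set Z := zpowers e
    have hidx : (Z.subgroupOf R).index = 2 := by
      have h := (Z.subgroupOf R).card_mul_index
      rw [card_subgroupOf (zpowers_le.2 heR : Z ≤ R), Nat.card_zpowers, he4, hR.card] at h
      omega
    have hxR : x ∈ centralizer (R : Set H) := by
      rw [mem_centralizer_iff]
      intro a ha
      suffices h : x * a * x⁻¹ = a from (mul_inv_eq_iff_eq_mul.1 h).symm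
      by_cases haZ : a ∈ Z
      · obtain ⟨i, rfl⟩ := mem_zpowers_iff.1 haZ
        rw [← MulAut.conj_apply, map_zpow, MulAut.conj_apply, hxe]
      have hnot : x * a * x⁻¹ ∉ Z := fun hm => haZ (by
        obtain ⟨i, hi⟩ := mem_zpowers_iff.1 hm
        have : a = x⁻¹ * (x * a * x⁻¹) * x := by group
        rw [this, ← hi]
        have h2 : x⁻¹ * e * x = e := by
          calc x⁻¹ * e * x = x⁻¹ * (x * e * x⁻¹) * x := by rw [hxe]
            _ = e := by group
        have h3 : x⁻¹ * e ^ i * x = e ^ i := by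
          have := congrArg (· ^ i) h2
          simpa using ((map_zpow (MulAut.conj x⁻¹) e i).trans (by simpa using this))
        rw [h3]; exact zpow_mem (mem_zpowers e) i)
      have hmem : a⁻¹ * (x * a * x⁻¹) ∈ Z := by
        have := (Subgroup.mul_mem_iff_of_index_two hidx
          (a := (⟨a, ha⟩ : ↥R)⁻¹) (b := ⟨_, hconj x a ha⟩)).2
          (by simp only [inv_mem_iff, mem_subgroupOf]; exact iff_of_false haZ hnot)
        simpa [mem_subgroupOf] using this
      obtain ⟨i, hi⟩ := mem_zpowers_iff.1 hmem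
      have hxa : x * a * x⁻¹ = a * e ^ i := by rw [hi]; group
      have hpow : ∀ m : ℕ, x ^ m * a * (x ^ m)⁻¹ = a * (e ^ i) ^ m := by
        intro m
        induction m with
        | zero => simp
        | succ m ih =>
          have hei : x * e ^ i * x⁻¹ = e ^ i := by
            rw [← MulAut.conj_apply, map_zpow, MulAut.conj_apply, hxe]
          calc x ^ (m + 1) * a * (x ^ (m + 1))⁻¹
              = x * (x ^ m * a * (x ^ m)⁻¹) * x⁻¹ := by rw [pow_succ']; group
            _ = x * (a * (e ^ i) ^ m) * x⁻¹ := by rw [ih]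
            _ = (x * a * x⁻¹) * (x * e ^ i * x⁻¹) ^ m := by rw [conj_pow]; group
            _ = a * (e ^ i) ^ (m + 1) := by rw [hxa, hei, pow_succ']; group
      have h1 := hpow s
      rw [hxs, inv_one, one_mul, mul_one, eq_comm, mul_eq_left] at h1
      have hei1 : e ^ i = 1 := orderOf_eq_one_iff.1 (Nat.eq_one_of_dvd_coprimes
        (show Nat.Coprime s 4 from Nat.Coprime.pow_right 2 ((Nat.coprime_primes hs Nat.prime_two).2 hs2))
        (orderOf_dvd_of_pow_eq_one h1)
        (orderOf_dvd_of_pow_eq_one (hR.pow_four (R.zpow_mem heR i))))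
      rw [hxa, hei1, mul_one]
    have hxM : x ∈ M := hP.mem_of_orderOf hx₀M (hx₀o.trans (orderOf_eq_prime hxs hx1).symm)
    have hxF : x ∈ centralizer (fittingSubgroup H : Set H) := by
      refine zpowers_le.1 ?_
      rw [le_centralizer_iff, Hall.fittingSubgroup_eq_iSup_pCore]
      refine iSup_le fun t => ?_
      have : Fact (t : ℕ).Prime := ⟨t.2⟩
      rw [← le_centralizer_iff, zpowers_le]
      rcases eq_or_ne (t : ℕ) 2 with h2 | h2
      · refine centralizer_le ?_ hxR
        rw [h2]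
        exact hRall _ (Hall.isPGroup_pCore 2)
      · refine commutator_le_centralizer_of_isCyclic ?_ hxM
        by_contra hnc
        rcases noncyclic_cases hP (s := (t : ℕ)) (fun h => hnc (h _ (Hall.isPGroup_pCore _))) with
          ⟨E', hEc', hEn'⟩ | ⟨ht2, -⟩
        · apply hnc
          rw [(hE _ E' hEc' hEn').2.1]
          infer_instance
        · exact h2 ht2
    have hxc := mem_pCore_of_mem_fitting (s := s)
      (Hall.centralizer_fittingSubgroup_le hxF) (k := 1) (by rw [pow_one]; exact hxs)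
    rw [hcore, mem_bot] at hxc
    exact hx1 hxc
  refine Or.inl ?_
  have hMF := hcores fun R hRn hR hall => hq ⟨R, hRn, hR, hall⟩
  by_contra hcyc
  have : Fact s.Prime := ⟨hs⟩
  rcases noncyclic_cases hP hcyc with ⟨E, hEc, hEn⟩ | ⟨rfl, hQ⟩
  · obtain ⟨-, hcore, x, hxM, hxo⟩ := hE s E hEc hEn
    have hxc := mem_pCore_of_mem_fitting (s := s) (hMF hxM) (k := 1)
      (by rw [pow_one, ← hxo, pow_orderOf_eq_one])
    rw [hcore, mem_bot] at hxc
    rw [hxc, orderOf_one] at hxo
    exact hs.ne_one hxo.symm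
  obtain ⟨P⟩ := (inferInstance : Nonempty (Sylow 2 H))
  obtain ⟨e, heP, f, hfP, he4, hf4, hfe, -⟩ := (hQ P).exists_orderFour
  obtain ⟨g, hg⟩ := hP (zpowers e) (zpowers f) (by rw [Nat.card_zpowers, Nat.card_zpowers, he4, hf4])
  have hy : g * e * g⁻¹ ∈ zpowers f := hg ▸ conj_mem_conj_smul (mem_zpowers _)
  have hcP : ⁅g, e⁆ ∈ (P : Subgroup H) := by
    rw [commutatorElement_def]
    exact mul_mem (zpowers_le.2 hfP hy) (inv_mem heP)
  have hcO : ⁅g, e⁆ ∈ pCore 2 H := mem_pCore_of_mem_fitting (k := 2)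
    (hMF (commutator_mem_commutator (mem_top g) (mem_top e))) ((hQ P).pow_four hcP)
  have hOe : ∀ z ∈ pCore 2 H, z ^ 2 = 1 := by
    intro z hz
    by_contra hz2
    have hzP := Hall.pCore_le_sylow P hz
    have hz4 : orderOf z = 4 := orderOf_eq_prime_pow (p := 2) (n := 1) (by rwa [pow_one])
      ((hQ P).pow_four hzP)
    -- then all elements of order four are in the core
    have hef : ∀ w ∈ (P : Subgroup H), w ∈ pCore 2 H := fun w hw => by
      by_cases hw4 : orderOf w = 4
      · exact hP.mem_of_orderOf hz (hz4.trans hw4.symm)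
      · have hw2 : w ^ 2 = 1 := by
          obtain ⟨i, hi, hi'⟩ := (Nat.dvd_prime_pow Nat.prime_two).1
            (show orderOf w ∣ 2 ^ 2 from orderOf_dvd_of_pow_eq_one ((hQ P).pow_four hw))
          rcases Nat.lt_or_ge i 2 with h2 | h2
          · exact orderOf_dvd_iff_pow_eq_one.1 (by
              rw [hi']; exact (pow_dvd_pow 2 (show i ≤ 1 by omega)))
          · exact absurd (by rw [hi', show i = 2 by omega]; rfl) hw4
        exact zpowers_le.2 (hP.mem_of_orderOf hz (hz4.trans he4.symm))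
          ((hQ P).mem_zpowers_of_sq heP he4 hw hw2)
    have heq : pCore 2 H = (P : Subgroup H) := le_antisymm (Hall.pCore_le_sylow P) hef
    refine hq ⟨pCore 2 H, inferInstance, heq ▸ hQ P, fun S hS => ?_⟩
    obtain ⟨Q, hQS⟩ := hS.exists_le_sylow
    obtain ⟨u, hu⟩ := MulAction.exists_smul_eq H P Q
    rw [← hu, Sylow.coe_subgroup_smul, ← heq, conj_smul_of_normal] at hQS
    exact hQS
  have hce : ⁅g, e⁆ ∈ zpowers e := (hQ P).mem_zpowers_of_sq heP he4 hcP (hOe _ hcO)
  have hye : g * e * g⁻¹ ∈ zpowers e := by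
    have : g * e * g⁻¹ = ⁅g, e⁆ * e := by rw [commutatorElement_def]; group
    rw [this]; exact mul_mem hce (mem_zpowers e)
  have heq : zpowers (g * e * g⁻¹) = zpowers f := eq_of_le_of_card_ge (zpowers_le.2 hy)
    (by rw [Nat.card_zpowers, Nat.card_zpowers, hf4, ← MulAut.conj_apply, MulEquiv.orderOf_eq, he4])
  exact hfe (zpowers_le.2 hye (heq ▸ mem_zpowers f))

end Cfsg.Agent.Lib.ConjEqual
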